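import Mathlib
import Cfsg.Agent.H665.RIM.Defs

/-!
# S4816 (RIM), module side: the "A-tool" for elementary abelian 2-subgroups (helper257)

`A ≤ H` a finite abelian group of exponent two, given by elements `el i` (`i : I`) and real characters `ch c` (`c : C`), `P` a
Sylow `p`-subgroup normalizing `A`, `N` a subgroup normalizing `P`.  If the non-trivial characters are permuted transitively by
elements normalizing `A` and every character is `P`-conjugate to one in `R`, then every `V` as in `NoPEx` has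
`|V : C_V(P)| ≥ p ^ (|C| - |R|)`; on the other hand `|V : C_V(P)| ≤ |H : N|`.

**`noPEx_of_atool`**, **`ek_of_noPEx`** (the case of a multiplier of prime order).
-/

set_option autoImplicit false
set_option linter.unusedSectionVars false

namespace Cfsg.Agent.H257.RIM

open Cfsg Cfsg.Agent.H665.RIM Cfsg.Agent.H229.RIM
open scoped commutatorElement

universe u

section proj

variable {H V I : Type*} [Group H] [AddCommGroup V] [DistribMulAction H V] [Fintype I]

/-- the (not normalized) projection -/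
def E (el : I → H) (f : I → ℤ) : V →+ V where
  toFun v := ∑ i, f i • (el i • v)
  map_zero' := by simp
  map_add' a b := by simp [smul_add, Finset.sum_add_distrib]

theorem E_apply (el : I → H) (f : I → ℤ) (v : V) : E el f v = ∑ i, f i • (el i • v) := rfl

/-- `g` carries the character `f` to the character `f'` -/
def Rel (el : I → H) (g : H) (f f' : I → ℤ) : Prop :=
  ∃ σ : I → I, Function.Bijective σ ∧ (∀ i, el (σ i) * g = g * el i) ∧ ∀ i, f' (σ i) = f i

theorem Rel.refl (el : I → H) (f : I → ℤ) : Rel el 1 f f :=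
  ⟨id, Function.bijective_id, fun i => by rw [id, mul_one, one_mul], fun _ => rfl⟩

theorem Rel.trans {el : I → H} {g h : H} {f f' f'' : I → ℤ} (h1 : Rel el g f f') (h2 : Rel el h f' f'') :
    Rel el (h * g) f f'' := by
  obtain ⟨σ, hσ, a1, a2⟩ := h1
  obtain ⟨τ, hτ, b1, b2⟩ := h2
  refine ⟨τ ∘ σ, hτ.comp hσ, fun i => ?_, fun i => ?_⟩
  · rw [Function.comp_apply, ← mul_assoc, b1, mul_assoc, a1, mul_assoc]
  · rw [Function.comp_apply, b2, a2]

theorem Rel.symm {el : I → H} {g : H} {f f' : I → ℤ} (h1 : Rel el g f f') : Rel el g⁻¹ f' f := by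
  obtain ⟨σ, hσ, a1, a2⟩ := h1
  let e := Equiv.ofBijective σ hσ
  have he : ∀ i, σ (e.symm i) = i := fun i => e.apply_symm_apply i
  refine ⟨e.symm, e.symm.bijective, fun i => ?_, fun i => ?_⟩
  · have h2 := a1 (e.symm i)
    rw [he] at h2
    have h3 : g⁻¹ * (el i * g) * g⁻¹ = g⁻¹ * (g * el (e.symm i)) * g⁻¹ := by rw [h2]
    rw [inv_mul_cancel_left, mul_assoc, mul_inv_cancel_right] at h3
    exact h3.symm
  · have h2 := a2 (e.symm i)
    rw [he] at h2
    exact h2.symm

theorem E_conj {el : I → H} {g : H} {f f' : I → ℤ} (h : Rel el g f f') (v : V) :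
    g • E el f v = E el f' (g • v) := by
  obtain ⟨σ, hσ, h1, h2⟩ := h
  rw [E_apply, E_apply, Finset.smul_sum]
  rw [← Function.Bijective.sum_comp hσ (fun j => f' j • (el j • (g • v)))]
  refine Finset.sum_congr rfl fun i _ => ?_
  rw [h2, ← mul_smul, h1, mul_smul, smul_comm]

theorem E_act {el : I → H} {f : I → ℤ} {m : I → I → I} (hm : ∀ j, Function.Bijective (m j))
    (h1 : ∀ j i, el (m j i) = el j * el i) (h2 : ∀ j i, f (m j i) = f j * f i) (h3 : ∀ j, f j * f j = 1)
    (j : I) (v : V) : el j • E el f v = f j • E el f v := by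
  rw [E_apply, Finset.smul_sum]
  rw [← Function.Bijective.sum_comp (hm j) (fun i => f i • (el i • v)), Finset.smul_sum]
  refine Finset.sum_congr rfl fun i _ => ?_
  rw [h1, h2, ← mul_smul (f j), ← mul_assoc, h3, one_mul, smul_comm, mul_smul]

theorem E_E {el : I → H} {f : I → ℤ} {m : I → I → I} (hm : ∀ j, Function.Bijective (m j))
    (h1 : ∀ j i, el (m j i) = el j * el i) (h2 : ∀ j i, f (m j i) = f j * f i) (h3 : ∀ j, f j * f j = 1)
    (f' : I → ℤ) (v : V) : E el f' (E el f v) = (∑ i, f' i * f i) • E el f v := by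
  rw [E_apply, Finset.sum_smul]
  refine Finset.sum_congr rfl fun i _ => ?_
  rw [E_act hm h1 h2 h3, mul_smul]

end proj

/-- the elementary abelian group and its characters -/
structure AData {H : Type*} [Group H] {I C : Type} [Fintype I] [Fintype C] [DecidableEq I] [DecidableEq C]
    (el : I → H) (ch : C → I → ℤ) (m : I → I → I) (i0 : I) (c0 : C) (n : ℕ) : Prop where
  hm : ∀ j, Function.Bijective (m j)
  el0 : el i0 = 1
  elm : ∀ j i, el (m j i) = el j * el i
  chm : ∀ c j i, ch c (m j i) = ch c j * ch c i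
  chs : ∀ c j, ch c j * ch c j = 1
  ch0 : ∀ i, ch c0 i = 1
  orth : ∀ c c', (∑ i, ch c i * ch c' i) = if c = c' then (n : ℤ) else 0
  orth' : ∀ i, (∑ c, ch c i) = if i = i0 then (n : ℤ) else 0

section count

variable {p : ℕ} [Fact p.Prime] {H V : Type*} [Group H] [Finite H] [AddCommGroup V] [Finite V] [DistribMulAction H V]
  {I C : Type} [Fintype I] [Fintype C] [DecidableEq I] [DecidableEq C]
  {el : I → H} {ch : C → I → ℤ} {m : I → I → I} {i0 : I} {c0 : C} {n : ℕ}

theorem sum_E (h : AData el ch m i0 c0 n) (v : V) : ∑ c, E el (ch c) v = (n : ℤ) • v := by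
  simp only [E_apply]
  rw [Finset.sum_comm]
  have h1 : ∀ i : I, (∑ c, ch c i • (el i • v)) = if i = i0 then (n : ℤ) • v else 0 := by
    intro i
    rw [← Finset.sum_smul, h.orth']
    by_cases hi : i = i0
    · rw [if_pos hi, if_pos hi, hi, h.el0, one_smul]
    · rw [if_neg hi, if_neg hi, zero_smul]
  rw [Finset.sum_congr rfl fun i _ => h1 i, Finset.sum_ite_eq' Finset.univ i0, if_pos (Finset.mem_univ _)]

theorem smul_inj (hV : ∀ v : V, p • v = 0) (hn : ¬ p ∣ n) {v w : V} (h : (n : ℤ) • v = (n : ℤ) • w) : v = w := by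
  have hp : p.Prime := Fact.out
  have h1 : IsCoprime (p : ℤ) (n : ℤ) := Nat.isCoprime_iff_coprime.2 ((Nat.Prime.coprime_iff_not_dvd hp).2 hn)
  obtain ⟨a, b, hab⟩ := h1
  have h2 : ∀ u : V, (b * (n : ℤ)) • u = u := by
    intro u
    have h3 : (a * (p : ℤ)) • u = 0 := by rw [mul_smul, natCast_zsmul, hV, smul_zero]
    calc (b * (n : ℤ)) • u = (a * (p : ℤ)) • u + (b * (n : ℤ)) • u := by rw [h3, zero_add]
      _ = u := by rw [← add_smul, hab, one_smul]
  rw [← h2 v, ← h2 w, mul_smul, mul_smul, h]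

theorem smul_surj (hV : ∀ v : V, p • v = 0) (hn : ¬ p ∣ n) : ∃ b : ℤ, ∀ u : V, b • ((n : ℤ) • u) = u := by
  have hp : p.Prime := Fact.out
  have h1 : IsCoprime (p : ℤ) (n : ℤ) := Nat.isCoprime_iff_coprime.2 ((Nat.Prime.coprime_iff_not_dvd hp).2 hn)
  obtain ⟨a, b, hab⟩ := h1
  refine ⟨b, fun u => ?_⟩
  have h3 : (a * (p : ℤ)) • u = 0 := by rw [mul_smul, natCast_zsmul, hV, smul_zero]
  calc b • ((n : ℤ) • u) = (a * (p : ℤ)) • u + (b * (n : ℤ)) • u := by rw [h3, zero_add, mul_smul]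
    _ = u := by rw [← add_smul, hab, one_smul]

theorem inj_of (h : AData el ch m i0 c0 n) (hV : ∀ v : V, p • v = 0) (hn : ¬ p ∣ n) {v w : V}
    (hvw : ∀ c, E el (ch c) v = E el (ch c) w) : v = w := by
  refine smul_inj hV hn (n := n) ?_
  rw [← sum_E h, ← sum_E h]
  exact Finset.sum_congr rfl fun c _ => hvw c

theorem E_E' (h : AData el ch m i0 c0 n) (c c' : C) (v : V) :
    E el (ch c) (E el (ch c') v) = if c = c' then (n : ℤ) • E el (ch c') v else 0 := by
  rw [E_E h.hm h.elm (h.chm c') (h.chs c'), h.orth]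
  by_cases hc : c = c'
  · rw [if_pos hc, if_pos hc]
  · rw [if_neg hc, if_neg hc, zero_smul]

/-- the decomposition of `V` -/
theorem card_V (h : AData el ch m i0 c0 n) (hV : ∀ v : V, p • v = 0) (hn : ¬ p ∣ n) :
    Nat.card V = ∏ c, Nat.card (E (V := V) el (ch c)).range := by
  rw [← Nat.card_pi]
  refine Nat.card_congr (Equiv.ofBijective
    (fun v c => (⟨E el (ch c) v, v, rfl⟩ : (E (V := V) el (ch c)).range)) ⟨?_, ?_⟩)
  · intro v w hvw
    refine inj_of h hV hn fun c => ?_
    exact congrArg Subtype.val (congrFun hvw c)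
  · intro w
    choose u hu using fun c => (w c).2
    obtain ⟨b, hb⟩ := smul_surj (V := V) hV hn
    refine ⟨b • ∑ c, E el (ch c) (u c), funext fun c => Subtype.ext ?_⟩
    change E el (ch c) (b • ∑ c', E el (ch c') (u c')) = w c
    rw [map_zsmul, map_sum, Finset.sum_congr rfl fun c' _ => E_E' h c c' (u c'),
      Finset.sum_ite_eq Finset.univ c, if_pos (Finset.mem_univ _), hb, hu]

/-- the fixed points of a set of elements -/
def Fx (V : Type*) [AddCommGroup V] [DistribMulAction H V] (P : Subgroup H) : Set V := {v | ∀ g ∈ P, g • v = v}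

theorem card_Fx_le (h : AData el ch m i0 c0 n) (hV : ∀ v : V, p • v = 0) (hn : ¬ p ∣ n) (P : Subgroup H) (R : Finset C)
    (hR : ∀ c, ∃ r ∈ R, ∃ g ∈ P, Rel el g (ch r) (ch c)) :
    Nat.card (Fx V P) ≤ ∏ c ∈ R, Nat.card (E (V := V) el (ch c)).range := by
  rw [← Finset.prod_coe_sort R (fun c => Nat.card (E (V := V) el (ch c)).range), ← Nat.card_pi]
  refine Nat.card_le_card_of_injective
    (fun v (c : R) => (⟨E el (ch c) (v : V), v, rfl⟩ : (E (V := V) el (ch c)).range)) ?_
  intro v w hvw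
  refine Subtype.ext (inj_of h hV hn fun c => ?_)
  obtain ⟨r, hr, g, hg, hrel⟩ := hR c
  have h1 : E el (ch r) (v : V) = E el (ch r) (w : V) := congrArg Subtype.val (congrFun hvw ⟨r, hr⟩)
  have h2 := E_conj hrel (v : V)
  have h3 := E_conj hrel (w : V)
  rw [v.2 g hg] at h2
  rw [w.2 g hg] at h3
  rw [← h2, ← h3, h1]

/-- a proper part is not trivial -/
theorem le_card_range (h : AData el ch m i0 c0 n) (hV : ∀ v : V, p • v = 0) (hn : ¬ p ∣ n)
    (hf : ∀ g : H, (∀ v : V, g • v = v) → g = 1) (c1 : C) (hne : ∃ i, el i ≠ 1)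
    (hT' : ∀ c, c ≠ c0 → ∃ g, Rel el g (ch c1) (ch c)) (c : C) (hc : c ≠ c0) : p ≤ Nat.card (E (V := V) el (ch c)).range := by
  have hT : ∀ c, c ≠ c0 → ∃ g, Rel el g (ch c) (ch c1) := by
    intro c hc
    obtain ⟨g, hg⟩ := hT' c hc
    exact ⟨g⁻¹, hg.symm⟩
  -- some `E c1 v` is not zero
  have h1 : ∃ v : V, E el (ch c1) v ≠ 0 := by
    by_contra hcon
    push Not at hcon
    obtain ⟨i, hi⟩ := hne
    apply hi
    apply hf
    intro v
    have h2 : ∀ c, c ≠ c0 → E el (ch c) v = 0 := by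
      intro c hc
      obtain ⟨g, hg⟩ := hT c hc
      have h3 := E_conj hg v
      rw [hcon] at h3
      have h4 : g⁻¹ • (g • E el (ch c) v) = g⁻¹ • (0 : V) := by rw [h3]
      rwa [inv_smul_smul, smul_zero] at h4
    have h5 : (n : ℤ) • v = E el (ch c0) v := by
      rw [← sum_E h v]
      exact Finset.sum_eq_single c0 (fun c _ hc => h2 c hc) (fun hc => absurd (Finset.mem_univ _) hc)
    have h6 : el i • ((n : ℤ) • v) = (n : ℤ) • v := by
      rw [h5, E_act h.hm h.elm (h.chm c0) (h.chs c0), h.ch0, one_smul]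
    rw [smul_comm] at h6
    exact smul_inj hV hn h6
  obtain ⟨v, hv⟩ := h1
  obtain ⟨g, hg⟩ := hT' c hc
  have h3 := E_conj hg v
  have h4 : E el (ch c) (g • v) ≠ 0 := by
    rw [← h3]
    intro h0
    apply hv
    have h4 : g⁻¹ • (g • E el (ch c1) v) = g⁻¹ • (0 : V) := by rw [h0]
    rwa [inv_smul_smul, smul_zero] at h4
  let x : (E (V := V) el (ch c)).range := ⟨E el (ch c) (g • v), g • v, rfl⟩
  have h5 : addOrderOf x = p := by
    refine addOrderOf_eq_prime ?_ ?_
    · exact Subtype.ext (hV _)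
    · intro h0
      exact h4 (congrArg Subtype.val h0)
  rw [← h5]
  exact Nat.le_of_dvd Nat.card_pos (addOrderOf_dvd_natCard x)

/-- the covering bound: every vector is fixed by a Sylow subgroup -/
theorem card_V_le (P : Sylow p H) (N : Subgroup H) (hN : ∀ x ∈ N, ∀ g ∈ P, x⁻¹ * g * x ∈ P)
    (hst : ∀ v : V, ¬ p ∣ (MulAction.stabilizer H v).index) :
    Nat.card V ≤ N.index * Nat.card (Fx V (P : Subgroup H)) := by
  have hcov : ∀ v : V, ∃ g : H, ∃ u ∈ Fx V (P : Subgroup H), v = g • u := by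
    intro v
    have h1 : ¬ p ∣ Nat.card (H ⧸ MulAction.stabilizer H v) := hst v
    obtain ⟨q, hq⟩ := P.2.nonempty_fixed_point_of_prime_not_dvd_card (H ⧸ MulAction.stabilizer H v) h1
    obtain ⟨g, rfl⟩ := QuotientGroup.mk_surjective q
    refine ⟨g⁻¹, g • v, ?_, by rw [inv_smul_smul]⟩
    intro x hx
    have h2 : (⟨x, hx⟩ : (P : Subgroup H)) • (g : H ⧸ MulAction.stabilizer H v) = g := hq ⟨x, hx⟩
    have h3 : ((x * g : H) : H ⧸ MulAction.stabilizer H v) = g := h2
    have h4 := QuotientGroup.eq.1 h3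
    have h5 : ((x * g)⁻¹ * g) • v = v := h4
    have h6 : (x * g) • v = g • v := by
      conv_lhs => rw [← h5]
      rw [← mul_smul, mul_inv_cancel_left]
    rw [← h6, mul_smul]
    rw [mul_smul] at h6
    rw [h6, h6]
  have hsurj : Function.Surjective (fun x : (H ⧸ N) × Fx V (P : Subgroup H) => (Quotient.out x.1 : H) • (x.2 : V)) := by
    intro v
    obtain ⟨g, u, hu, rfl⟩ := hcov v
    obtain ⟨y, hy⟩ := QuotientGroup.mk_out_eq_mul N g
    refine ⟨((g : H ⧸ N), ⟨(y : H)⁻¹ • u, ?_⟩), ?_⟩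
    · intro x hx
      have h1 : ((y : H)⁻¹)⁻¹ * x * (y : H)⁻¹ ∈ P := hN (y : H)⁻¹ (N.inv_mem y.2) x hx
      have h2 := hu _ h1
      rw [inv_inv] at h2
      rw [← mul_smul]
      have h3 : (y : H)⁻¹ • (((y : H) * x * (y : H)⁻¹) • u) = (y : H)⁻¹ • u := by rw [h2]
      rw [← mul_smul] at h3
      rw [← h3]
      congr 1
      group
    · change (Quotient.out (g : H ⧸ N) : H) • ((y : H)⁻¹ • u) = g • u
      rw [hy, ← mul_smul, mul_assoc, mul_inv_cancel, mul_one]
  have h1 := Nat.card_le_card_of_surjective _ hsurj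
  rwa [Nat.card_prod] at h1

theorem noPEx_of_atool_aux (h : AData el ch m i0 c0 n) (hn : ¬ p ∣ n) (hV : ∀ v : V, p • v = 0)
    (hf : ∀ g : H, (∀ v : V, g • v = v) → g = 1) (c1 : C) (hne : ∃ i, el i ≠ 1)
    (hT' : ∀ c, c ≠ c0 → ∃ g, Rel el g (ch c1) (ch c)) (P : Sylow p H) (R : Finset C) (hR0 : c0 ∈ R) (hR : ∀ c, ∃ r ∈ R, ∃ g ∈ P, Rel el g (ch r) (ch c))
    (N : Subgroup H) (hN : ∀ x ∈ N, ∀ g ∈ P, x⁻¹ * g * x ∈ P)
    (hst : ∀ v : V, ¬ p ∣ (MulAction.stabilizer H v).index) :
    p ^ (Finset.univ \ R).card ≤ N.index := by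
  have hFx : 0 < Nat.card (Fx V (P : Subgroup H)) := by
    have : Nonempty (Fx V (P : Subgroup H)) := ⟨⟨0, fun g _ => smul_zero g⟩⟩
    exact Nat.card_pos
  have h1 := card_V_le P N hN hst
  have h2 := card_Fx_le (V := V) h hV hn P R hR
  have h3 := card_V (V := V) h hV hn
  rw [← Finset.prod_sdiff (Finset.subset_univ R)] at h3
  have h4 : p ^ (Finset.univ \ R).card ≤ ∏ c ∈ Finset.univ \ R, Nat.card (E (V := V) el (ch c)).range := by
    rw [← Finset.prod_const]
    refine Finset.prod_le_prod' fun c hc => ?_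
    refine le_card_range h hV hn hf c1 hne hT' c ?_
    rintro rfl
    exact (Finset.mem_sdiff.1 hc).2 hR0
  have h5 : p ^ (Finset.univ \ R).card * Nat.card (Fx V (P : Subgroup H)) ≤
      N.index * Nat.card (Fx V (P : Subgroup H)) := by
    refine le_trans (Nat.mul_le_mul h4 h2) ?_
    rw [← h3]
    exact h1
  exact Nat.le_of_mul_le_mul_right h5 hFx

end count

/-- **the A-tool** -/
theorem noPEx_of_atool {p : ℕ} [Fact p.Prime] {H : Type u} [Group H] [Finite H] {I C : Type} [Fintype I] [Fintype C]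
    [DecidableEq I] [DecidableEq C] {el : I → H} {ch : C → I → ℤ} {m : I → I → I} {i0 : I} {c0 : C} {n : ℕ}
    (h : AData el ch m i0 c0 n) (hn : ¬ p ∣ n) (c1 : C) (hne : ∃ i, el i ≠ 1)
    (hT' : ∀ c, c ≠ c0 → ∃ g, Rel el g (ch c1) (ch c)) (P : Sylow p H) (R : Finset C) (hR0 : c0 ∈ R) (hR : ∀ c, ∃ r ∈ R, ∃ g ∈ P, Rel el g (ch r) (ch c))
    (N : Subgroup H) (hN : ∀ x ∈ N, ∀ g ∈ P, x⁻¹ * g * x ∈ P) (hnum : N.index < p ^ (Finset.univ \ R).card) :
    NoPEx p H := by
  intro V _ _ _ hV _ hf _ hst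
  exact absurd (noPEx_of_atool_aux h hn hV hf c1 hne hT' P R hR0 hR N hN hst) (not_le.2 hnum)

/-- transfer along an isomorphism -/
theorem noPEx_of_equiv {p : ℕ} {H : Type*} [Group H] {S : Type u} [Group S] (f : H ≃* S)
    (hno : ∀ (V : Type u) [AddCommGroup V] [Finite V] [DistribMulAction H V], (∀ v : V, p • v = 0) →
      (∀ g : H, (∀ v : V, g • v = v) → g = 1) → (∀ v : V, ¬ p ∣ (MulAction.stabilizer H v).index) → False) :
    NoPEx p S := by
  intro V _ _ _ hV _ hf _ hst
  let inst : DistribMulAction H V := DistribMulAction.compHom V f.toMonoidHom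
  have hact : ∀ (g : H) (v : V), g • v = f g • v := fun g v => rfl
  refine hno V hV ?_ ?_
  · intro g hg
    have h1 : f g = 1 := hf (f g) fun v => by rw [← hact]; exact hg v
    exact (map_eq_one_iff f f.injective).1 h1
  · intro v hv
    apply hst v
    have h5 : (MulAction.stabilizer S v).comap f.toMonoidHom = MulAction.stabilizer H v := by
      ext g
      rw [Subgroup.mem_comap, MulAction.mem_stabilizer_iff, MulAction.mem_stabilizer_iff, hact]
      rfl
    rw [← h5, Subgroup.index_comap_of_surjective _ f.surjective] at hv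
    exact hv

end Cfsg.Agent.H257.RIM
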