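import Mathlib
import Cfsg.Agent.H665.RIM.Defs

/-!
# S4816 (RIM): `EK p S` from `NoPEx p S` for a multiplier of prime order (helper257)
-/

set_option autoImplicit false
set_option linter.unusedSectionVars false

namespace Cfsg.Agent.H257.RIM

open Cfsg Cfsg.Agent.H665.RIM Cfsg.Agent.H229.RIM
open scoped commutatorElement

universe u

/-- in a perfect group an element all of whose commutators are central is central -/
theorem central_of_comm {H : Type*} [Group H] (hp : commutator H = ⊤) (k : H)
    (hk : ∀ h : H, ⁅k, h⁆ ∈ Subgroup.center H) : k ∈ Subgroup.center H := by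
  have hmul : ∀ a b : H, ⁅k, a * b⁆ = ⁅k, a⁆ * ⁅k, b⁆ := by
    intro a b
    have h1 : a * ⁅k, b⁆ = ⁅k, b⁆ * a := Subgroup.mem_center_iff.1 (hk b) a
    have h2 : ⁅k, a * b⁆ = ⁅k, a⁆ * (a * ⁅k, b⁆ * a⁻¹) := by
      simp only [commutatorElement_def]
      group
    rw [h2, h1, mul_inv_cancel_right]
  let f : H →* H := ⟨⟨fun h => ⁅k, h⁆, commutatorElement_one_right k⟩, hmul⟩
  have h1 : commutator H ≤ f.ker := by
    rw [commutator_def, Subgroup.commutator_le]
    intro a _ b _
    rw [MonoidHom.mem_ker, map_commutatorElement, commutatorElement_eq_one_iff_mul_comm]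
    exact (Subgroup.mem_center_iff.1 (hk b) (f a))
  rw [Subgroup.mem_center_iff]
  intro g
  have h2 : g ∈ f.ker := h1 (by rw [hp]; exact Subgroup.mem_top g)
  have h3 : ⁅k, g⁆ = 1 := MonoidHom.mem_ker.1 h2
  exact (commutatorElement_eq_one_iff_mul_comm.1 h3).symm

/-- `EK p S` from `NoPEx p S` when the order of the multiplier divides a prime -/
theorem ek_of_noPEx {p : ℕ} {S : Type u} [Group S] [Finite S] (hno : NoPEx p S) {q : ℕ} (hq : q.Prime)
    (hM : ∀ (E : Type u) [Group E] [Finite E] (π : E →* S), Function.Surjective π → π.ker ≤ Subgroup.center E →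
      commutator E = ⊤ → Nat.card π.ker ∣ q) : EK p S := by
  intro H V _ _ _ _ _ K N φ π h hπ hker hKN
  have hKc : K ≤ Subgroup.center H := fun k hk => central_of_comm h.perf k fun g => h.cen (hKN k hk g)
  have h1 : Nat.card K ∣ q := by
    rw [← hker]
    exact hM H π hπ (by rw [hker]; exact hKc) h.perf
  have hNK : N = K := by
    have h2 : Nat.card N ∣ Nat.card K := Subgroup.card_dvd_of_le h.NK
    have h3 : Nat.card N ≠ 1 := fun h0 => h.Nne (Subgroup.card_eq_one.1 h0)
    have h4 : Nat.card N = q := (hq.eq_one_or_self_of_dvd _ (h2.trans h1)).resolve_left h3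
    refine Subgroup.eq_of_le_of_card_ge h.NK ?_
    rw [h4]
    exact Nat.le_of_dvd hq.pos h1
  let ρ : H →* (AddMonoid.End V)ˣ := (DistribMulAction.toAddMonoidEnd H V).toHomUnits
  have hle : π.ker ≤ ρ.ker := by
    intro g hg
    rw [hker, ← hNK] at hg
    rw [MonoidHom.mem_ker]
    refine Units.ext (AddMonoidHom.ext fun v => ?_)
    exact (h.ker g).2 hg v
  let ρ' : S →* (AddMonoid.End V)ˣ := π.liftOfSurjective hπ ⟨ρ, hle⟩
  have hρ : ∀ g, ρ' (π g) = ρ g := fun g => MonoidHom.liftOfRightInverse_comp_apply _ _ _ ⟨ρ, hle⟩ g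
  letI : DistribMulAction S V := DistribMulAction.compHom V ((Units.coeHom (AddMonoid.End V)).comp ρ')
  have hact : ∀ (g : H) (v : V), π g • v = g • v := by
    intro g v
    change ((ρ' (π g) : (AddMonoid.End V)ˣ) : AddMonoid.End V) v = g • v
    rw [hρ]
    rfl
  refine hno V h.exp h.nt ?_ ?_ ?_
  · intro s hs
    obtain ⟨g, rfl⟩ := hπ s
    have h5 : g ∈ N := (h.ker g).1 fun v => by rw [← hact]; exact hs v
    rw [hNK, ← hker] at h5
    exact h5
  · intro W hW
    exact h.irr W fun g w hw => by rw [← hact]; exact hW _ w hw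
  · intro v hv
    apply h.P1 v
    have h5 : (MulAction.stabilizer S v).comap π = MulAction.stabilizer H v := by
      ext g
      rw [Subgroup.mem_comap, MulAction.mem_stabilizer_iff, MulAction.mem_stabilizer_iff, hact]
    rw [← h5, Subgroup.index_comap_of_surjective _ hπ]
    exact hv

end Cfsg.Agent.H257.RIM
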